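import Mathlib
import Cfsg.Agent.SteinbergSL.Presentation
import Cfsg.Agent.SteinbergSL.SLSys
import Cfsg.Agent.SLThreePres.Matrix
import Cfsg.Agent.FreeGroupLaws.Classical

/-!
An alternating group and a copy of `SL₃` satisfying a few relations generate a quotient of `SL_n`:
the relations between disjoint root groups follow from two of them by moving with tori.
-/

set_option autoImplicit false

open Equiv

namespace CfsgLib.SLPres77

open CfsgLib.SteinbergSL CfsgLib.SLThreePres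
open CfsgLib.FreeGroupLaws (altToSL)

/-- Two injective families are related by a permutation. -/
theorem exists_perm_map {k n : ℕ} (f g : Fin k → Fin n) (hf : Function.Injective f)
    (hg : Function.Injective g) : ∃ σ : Perm (Fin n), ∀ i, σ (f i) = g i := by
  classical
  let e : {x // x ∈ Set.range f} ≃ {x // x ∈ Set.range g} :=
    (Equiv.ofInjective f hf).symm.trans (Equiv.ofInjective g hg)
  refine ⟨e.extendSubtype, fun i => ?_⟩
  rw [e.extendSubtype_apply_of_mem (f i) ⟨i, rfl⟩]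
  simp only [e, Equiv.trans_apply]
  rw [show (⟨f i, ⟨i, rfl⟩⟩ : {x // x ∈ Set.range f}) = Equiv.ofInjective f hf i from
    Subtype.ext rfl, Equiv.symm_apply_apply]
  rfl

section Base

variable {n : ℕ}

/-- The first points. -/
def pt (hn : 4 ≤ n) (i : Fin 4) : Fin n := Fin.castLE hn i

theorem pt_inj (hn : 4 ≤ n) : Function.Injective (pt hn) := Fin.castLE_injective hn

theorem pt_ne (hn : 4 ≤ n) {i j : Fin 4} (h : i ≠ j) : pt hn i ≠ pt hn j := (pt_inj hn).ne h

/-- The first three points. -/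
def pt3 (hn : 4 ≤ n) (i : Fin 3) : Fin n := pt hn i.castSucc

theorem pt3_inj (hn : 4 ≤ n) : Function.Injective (pt3 hn) :=
  (pt_inj hn).comp (Fin.castSucc_injective 3)

/-- An even permutation with prescribed images of `0` and `1`. -/
theorem exists_alt_two (hn : 4 ≤ n) {i j : Fin n} (h : i ≠ j) :
    ∃ τ : alternatingGroup (Fin n), τ.1 (pt hn 0) = i ∧ τ.1 (pt hn 1) = j := by
  obtain ⟨σ, hσ⟩ := exists_perm_map (fun k : Fin 2 => pt hn (Fin.castLE (show 2 ≤ 4 by norm_num) k)) ![i, j]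
    ((pt_inj hn).comp (Fin.castLE_injective (show 2 ≤ 4 by norm_num))) (by
      intro a b; fin_cases a <;> fin_cases b <;> simp [h, h.symm])
  have h0 : σ (pt hn 0) = i := hσ 0
  have h1 : σ (pt hn 1) = j := hσ 1
  rcases Int.units_eq_one_or (Perm.sign σ) with hs | hs
  · exact ⟨⟨σ, hs⟩, h0, h1⟩
  · refine ⟨⟨σ * swap (pt hn 2) (pt hn 3), ?_⟩, ?_, ?_⟩
    · rw [Perm.mem_alternatingGroup, map_mul, hs, Perm.sign_swap (pt_ne hn (by decide))]; rfl
    · rw [Perm.mul_apply, swap_apply_of_ne_of_ne (pt_ne hn (by decide)) (pt_ne hn (by decide)), h0]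
    · rw [Perm.mul_apply, swap_apply_of_ne_of_ne (pt_ne hn (by decide)) (pt_ne hn (by decide)), h1]

end Base

variable {F : Type*} [Field F] {n : ℕ} {G : Type*} [Group G]

section Y

open _root_.Classical in
/-- The root elements carried around by the alternating group. -/
noncomputable def yv (hn : 4 ≤ n) (rho : alternatingGroup (Fin n) →* G)
    (lam : Matrix.SpecialLinearGroup (Fin 3) F →* G) (i j : Fin n) (a : F) : G :=
  if h : ∃ τ : alternatingGroup (Fin n), τ.1 (pt hn 0) = i ∧ τ.1 (pt hn 1) = j then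
    rho h.choose * lam (tv 0 1 a) * (rho h.choose)⁻¹
  else 1

end Y

/-- The data: compatible homomorphisms from `A_n` and `SL₃`. -/
structure Glue (hn : 4 ≤ n) (rho : alternatingGroup (Fin n) →* G)
    (lam : Matrix.SpecialLinearGroup (Fin 3) F →* G) : Prop where
  cyc : ∃ c : alternatingGroup (Fin n), (∀ r : Fin 3, c.1 (pt3 hn r) = pt3 hn (r + 1)) ∧
    (∀ x, (∀ r, x ≠ pt3 hn r) → c.1 x = x) ∧ rho c = lam cycleSL
  cent : ∀ z : alternatingGroup (Fin n), z.1 (pt hn 0) = pt hn 0 → z.1 (pt hn 1) = pt hn 1 →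
    ∀ a, Commute (rho z) (lam (tv 0 1 a))
  flip : ∃ e : alternatingGroup (Fin n), e.1 (pt hn 0) = pt hn 1 ∧ e.1 (pt hn 1) = pt hn 0 ∧
    ∀ a, rho e * lam (tv 0 1 a) * (rho e)⁻¹ = lam (tv 1 0 a)
  disj : ∀ τ : alternatingGroup (Fin n),
    (τ.1 (pt hn 0) = pt hn 2 ∧ τ.1 (pt hn 1) = pt hn 3) ∨
      (τ.1 (pt hn 0) = pt hn 3 ∧ τ.1 (pt hn 1) = pt hn 2) →
    Commute (lam (tv 0 1 1)) (rho τ * lam (tv 0 1 1) * (rho τ)⁻¹)

namespace Glue

variable {hn : 4 ≤ n} {rho : alternatingGroup (Fin n) →* G}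
  {lam : Matrix.SpecialLinearGroup (Fin 3) F →* G} (D : Glue hn rho lam)

local notation "y" => yv hn rho lam

include D

theorem y_eq {τ : alternatingGroup (Fin n)} {i j : Fin n} (h0 : τ.1 (pt hn 0) = i)
    (h1 : τ.1 (pt hn 1) = j) (a : F) : y i j a = rho τ * lam (tv 0 1 a) * (rho τ)⁻¹ := by
  have hex : ∃ τ : alternatingGroup (Fin n), τ.1 (pt hn 0) = i ∧ τ.1 (pt hn 1) = j := ⟨τ, h0, h1⟩
  rw [yv, dif_pos hex]
  obtain ⟨c0, c1⟩ := hex.choose_spec
  generalize hex.choose = σ at c0 c1 ⊢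
  have hz : ∀ x, τ.1 x = σ.1 x → (τ⁻¹ * σ : alternatingGroup (Fin n)).1 x = x := fun x hx => by
    simp only [Subgroup.coe_mul, Subgroup.coe_inv, Perm.mul_apply, ← hx]
    simp
  have h := (D.cent (τ⁻¹ * σ) (hz _ (h0.trans c0.symm)) (hz _ (h1.trans c1.symm)) a).eq
  rw [map_mul, map_inv] at h
  rw [eq_comm, eq_mul_inv_iff_mul_eq]
  calc rho τ * lam (tv 0 1 a) * (rho τ)⁻¹ * rho σ
      = rho τ * (lam (tv 0 1 a) * ((rho τ)⁻¹ * rho σ)) := by group
    _ = rho σ * lam (tv 0 1 a) := by rw [← h]; group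

theorem equiv_y (z : alternatingGroup (Fin n)) {i j : Fin n} (h : i ≠ j) (a : F) :
    rho z * y i j a * (rho z)⁻¹ = y (z.1 i) (z.1 j) a := by
  obtain ⟨τ, h0, h1⟩ := exists_alt_two hn h
  rw [D.y_eq h0 h1, D.y_eq (τ := z * τ) (by simp [Perm.mul_apply, h0])
    (by simp [Perm.mul_apply, h1]), map_mul]
  group

theorem y_add {i j : Fin n} (h : i ≠ j) (a b : F) : y i j a * y i j b = y i j (a + b) := by
  obtain ⟨τ, h0, h1⟩ := exists_alt_two hn h
  have hab : tv (0 : Fin 3) 1 a * tv 0 1 b = tv 0 1 (a + b) :=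
    (slSys (ι := Fin 3) (F := F)).add (i := 0) (j := 1) (by decide) a b
  rw [D.y_eq h0 h1, D.y_eq h0 h1, D.y_eq h0 h1, ← hab, map_mul]
  group

theorem lam_tv {r s : Fin 3} (h : r ≠ s) (a : F) : lam (tv r s a) = y (pt3 hn r) (pt3 hn s) a := by
  obtain ⟨c, hc, -, hlc⟩ := D.cyc
  have h01 : lam (tv (0 : Fin 3) 1 a) = y (pt3 hn 0) (pt3 hn 1) a := by
    rw [D.y_eq (τ := 1) (i := pt3 hn 0) (j := pt3 hn 1) rfl rfl, map_one, one_mul, inv_one, mul_one]
  have h10 : lam (tv (1 : Fin 3) 0 a) = y (pt3 hn 1) (pt3 hn 0) a := by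
    obtain ⟨e, e0, e1, he⟩ := D.flip
    rw [D.y_eq (τ := e) (i := pt3 hn 1) (j := pt3 hn 0) e0 e1, he]
  have step : ∀ r s : Fin 3, r ≠ s → lam (tv r s a) = y (pt3 hn r) (pt3 hn s) a →
      lam (tv (r + 1) (s + 1) a) = y (pt3 hn (r + 1)) (pt3 hn (s + 1)) a := by
    intro r s h ih
    have h' : r + 1 ≠ s + 1 := fun e => h (add_right_cancel e)
    have hmat : cycleSL * tv r s a = tv (r + 1) (s + 1) a * cycleSL := by
      rw [tv_ne h, tv_ne h']
      refine CfsgLib.SLRegGen.conj_transvection _ h h' a a 1 1 ?_ ?_ rfl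
      · funext k
        rw [Matrix.mulVec_single_one]
        fin_cases r <;> fin_cases k <;> simp [cycleSL]
      · funext k
        rw [Matrix.single_one_vecMul]
        fin_cases s <;> fin_cases k <;> simp [cycleSL]
    rw [eq_mul_inv_of_mul_eq hmat.symm, map_mul, map_mul, map_inv, ← hlc, ih,
      D.equiv_y c ((pt3_inj hn).ne h), hc, hc]
  have h12 := step 0 1 (by decide) h01
  have h20 := step 1 2 (by decide) h12
  have h21 := step 1 0 (by decide) h10
  have h02 := step 2 1 (by decide) h21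
  fin_cases r <;> fin_cases s <;> first | exact absurd rfl h | assumption

/-- Every three points carry a copy of `SL₃`. -/
theorem exists_triple {i j k : Fin n} (hij : i ≠ j) (hjk : j ≠ k) (hik : i ≠ k) :
    ∃ (L : Matrix.SpecialLinearGroup (Fin 3) F →* G) (p : Fin 3 → Fin n) (a b c : Fin 3),
      (p a = i ∧ p b = j ∧ p c = k) ∧ (a ≠ b ∧ b ≠ c ∧ a ≠ c) ∧
      ∀ r s, r ≠ s → ∀ t, L (tv r s t) = y (p r) (p s) t := by
  obtain ⟨σ, hσ⟩ := exists_perm_map (pt3 hn) ![i, j, k] (pt3_inj hn) (by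
    intro a b; fin_cases a <;> fin_cases b <;> simp [hij, hjk, hik, hij.symm, hjk.symm, hik.symm])
  have key : ∀ (τ : alternatingGroup (Fin n)) (a b c : Fin 3), τ.1 (pt3 hn a) = i →
      τ.1 (pt3 hn b) = j → τ.1 (pt3 hn c) = k → a ≠ b → b ≠ c → a ≠ c →
      ∃ (L : Matrix.SpecialLinearGroup (Fin 3) F →* G) (p : Fin 3 → Fin n) (a b c : Fin 3),
      (p a = i ∧ p b = j ∧ p c = k) ∧ (a ≠ b ∧ b ≠ c ∧ a ≠ c) ∧
      ∀ r s, r ≠ s → ∀ t, L (tv r s t) = y (p r) (p s) t := fun τ a b c ha hb hc h1 h2 h3 =>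
    ⟨(MulAut.conj (rho τ)).toMonoidHom.comp lam, fun r => τ.1 (pt3 hn r), a, b, c, ⟨ha, hb, hc⟩,
      ⟨h1, h2, h3⟩, fun r s h t => by
        simp only [MonoidHom.comp_apply, MulEquiv.toMonoidHom_eq_coe, MonoidHom.coe_coe,
          MulAut.conj_apply]
        rw [D.lam_tv h, D.equiv_y τ ((pt3_inj hn).ne h)]⟩
  rcases Int.units_eq_one_or (Perm.sign σ) with hs | hs
  · exact key ⟨σ, hs⟩ 0 1 2 (hσ 0) (hσ 1) (hσ 2) (by decide) (by decide) (by decide)
  · refine key ⟨σ * swap (pt3 hn 0) (pt3 hn 1), ?_⟩ 1 0 2 ?_ ?_ ?_ (by decide) (by decide)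
      (by decide)
    · rw [Perm.mem_alternatingGroup, map_mul, hs, Perm.sign_swap ((pt3_inj hn).ne (by decide))]; rfl
    · show σ _ = _
      rw [swap_apply_right]; exact hσ 0
    · show σ _ = _
      rw [swap_apply_left]; exact hσ 1
    · show σ _ = _
      rw [swap_apply_of_ne_of_ne ((pt3_inj hn).ne (by decide)) ((pt3_inj hn).ne (by decide))]
      exact hσ 2

theorem chev {i j k : Fin n} (hij : i ≠ j) (hjk : j ≠ k) (hik : i ≠ k) (s t : F) :
    y i j s * y j k t * (y i j s)⁻¹ * (y j k t)⁻¹ = y i k (s * t) := by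
  obtain ⟨L, p, a, b, c, ⟨ha, hb, hc⟩, ⟨hab, hbc, hac⟩, hL⟩ := D.exists_triple hij hjk hik
  subst ha hb hc
  rw [← hL a b hab, ← hL b c hbc, ← hL a c hac, ← map_mul, ← map_inv, ← map_mul, ← map_inv,
    ← map_mul]
  exact congrArg L ((slSys (ι := Fin 3) (F := F)).chev hab hbc hac s t)

theorem comm_row {i j k : Fin n} (hij : i ≠ j) (hjk : j ≠ k) (hik : i ≠ k) (s t : F) :
    Commute (y i j s) (y i k t) := by
  obtain ⟨L, p, a, b, c, ⟨ha, hb, hc⟩, ⟨hab, hbc, hac⟩, hL⟩ := D.exists_triple hij hjk hik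
  subst ha hb hc
  rw [← hL a b hab, ← hL a c hac]
  exact Commute.map ((slSys (ι := Fin 3) (F := F)).comm hab hac hab.symm hac s t) L

theorem comm_col {i j k : Fin n} (hij : i ≠ j) (hjk : j ≠ k) (hik : i ≠ k) (s t : F) :
    Commute (y i k s) (y j k t) := by
  obtain ⟨L, p, a, b, c, ⟨ha, hb, hc⟩, ⟨hab, hbc, hac⟩, hL⟩ := D.exists_triple hij hjk hik
  subst ha hb hc
  rw [← hL a c hac, ← hL b c hbc]
  exact Commute.map ((slSys (ι := Fin 3) (F := F)).comm hac hbc hbc.symm hac s t) L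

/-- The torus element of a pair, as a word. -/
noncomputable def torus (_D : Glue hn rho lam) (i j : Fin n) (t : F) : G :=
  y i j t * y j i (-t⁻¹) * y i j t * (y i j (-1) * y j i (-(-1 : F)⁻¹) * y i j (-1))

theorem torus_semiconj {i j k : Fin n} (hij : i ≠ j) (hjk : j ≠ k) (hik : i ≠ k) {t : F}
    (ht : t ≠ 0) (u : F) :
    SemiconjBy (D.torus i k t) (y i j u) (y i j (t * u)) ∧
      SemiconjBy (D.torus k i t) (y i j u) (y i j (t⁻¹ * u)) ∧
      SemiconjBy (D.torus j k t) (y i j u) (y i j (t⁻¹ * u)) ∧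
      SemiconjBy (D.torus k j t) (y i j u) (y i j (t * u)) := by
  obtain ⟨L, p, a, b, c, ⟨ha, hb, hc⟩, ⟨hab, hbc, hac⟩, hL⟩ := D.exists_triple hij hjk hik
  subst ha hb hc
  have hT : ∀ r s, r ≠ s → D.torus (p r) (p s) t = L ((slSys (ι := Fin 3) (F := F)).h r s t) := by
    intro r s h
    simp only [torus, RootSys.h, RootSys.w, map_mul]
    show _ = L (tv r s t) * L (tv s r _) * L (tv r s t) * (L (tv r s _) * L (tv s r _) * L (tv r s _))
    rw [hL r s h, hL r s h, hL s r h.symm, hL s r h.symm]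
  have key : ∀ r s, r ≠ s → SemiconjBy (D.torus (p r) (p s) t) (y (p a) (p b) u)
      (y (p a) (p b) (RootSys.wt r s t a * u / RootSys.wt r s t b)) := fun r s h => by
    rw [hT r s h, ← hL a b hab, ← hL a b hab]
    exact SemiconjBy.map ((slSys (ι := Fin 3) (F := F)).h_semiconj (by simp) h hab ht u) L
  refine ⟨?_, ?_, ?_, ?_⟩
  · simpa [RootSys.wt, hab.symm, hbc, hac] using key a c hac
  · simpa [RootSys.wt, hab.symm, hbc, hac] using key c a hac.symm
  · simpa [RootSys.wt, hab, hbc, hac, div_eq_mul_inv, mul_comm] using key b c hbc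
  · simpa [RootSys.wt, hab, hbc, hac, div_eq_mul_inv, mul_comm] using key c b hbc.symm

theorem disj_one {i j k l : Fin n} (hij : i ≠ j) (hkl : k ≠ l) (hik : i ≠ k) (hil : i ≠ l)
    (hjk : j ≠ k) (hjl : j ≠ l) : Commute (y i j 1) (y k l 1) := by
  obtain ⟨σ, hσ⟩ := exists_perm_map (pt hn) ![i, j, k, l] (pt_inj hn) (by
    intro a b; fin_cases a <;> fin_cases b <;>
      simp [hij, hkl, hik, hil, hjk, hjl, hij.symm, hkl.symm, hik.symm, hil.symm, hjk.symm, hjl.symm])
  have key : ∀ (τ : alternatingGroup (Fin n)) (c d : Fin 4),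
      (c = 2 ∧ d = 3) ∨ (c = 3 ∧ d = 2) → τ.1 (pt hn 0) = i → τ.1 (pt hn 1) = j →
      τ.1 (pt hn c) = k → τ.1 (pt hn d) = l → Commute (y i j 1) (y k l 1) := by
    intro τ c d hcd h0 h1 hc hd
    have hne : c ≠ d := by rcases hcd with ⟨rfl, rfl⟩ | ⟨rfl, rfl⟩ <;> decide
    obtain ⟨π, p0, p1⟩ := exists_alt_two hn (pt_ne hn hne)
    have h := D.disj π (by
      rcases hcd with ⟨rfl, rfl⟩ | ⟨rfl, rfl⟩
      · exact Or.inl ⟨p0, p1⟩
      · exact Or.inr ⟨p0, p1⟩)
    rw [← D.y_eq p0 p1] at h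
    have h' := h.map (MulAut.conj (rho τ)).toMonoidHom
    simp only [MulEquiv.toMonoidHom_eq_coe, MonoidHom.coe_coe, MulAut.conj_apply] at h'
    rw [← D.y_eq h0 h1, D.equiv_y τ (pt_ne hn hne), hc, hd] at h'
    exact h'
  rcases Int.units_eq_one_or (Perm.sign σ) with hs | hs
  · exact key ⟨σ, hs⟩ 2 3 (Or.inl ⟨rfl, rfl⟩) (hσ 0) (hσ 1) (hσ 2) (hσ 3)
  · refine key ⟨σ * swap (pt hn 2) (pt hn 3), ?_⟩ 3 2 (Or.inr ⟨rfl, rfl⟩) ?_ ?_ ?_ ?_
    · rw [Perm.mem_alternatingGroup, map_mul, hs, Perm.sign_swap (pt_ne hn (by decide))]; rfl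
    · show σ _ = _
      rw [swap_apply_of_ne_of_ne (pt_ne hn (by decide)) (pt_ne hn (by decide))]; exact hσ 0
    · show σ _ = _
      rw [swap_apply_of_ne_of_ne (pt_ne hn (by decide)) (pt_ne hn (by decide))]; exact hσ 1
    · show σ _ = _
      rw [swap_apply_right]; exact hσ 2
    · show σ _ = _
      rw [swap_apply_left]; exact hσ 3

theorem y_zero {i j : Fin n} (h : i ≠ j) : y i j 0 = 1 := by simpa using D.y_add h 0 0

theorem y_neg {i j : Fin n} (h : i ≠ j) (a : F) : y i j (-a) = (y i j a)⁻¹ :=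
  eq_inv_of_mul_eq_one_left (by rw [D.y_add h, neg_add_cancel, D.y_zero h])

theorem disjoint_comm [Fintype F] {i j k l : Fin n} (hij : i ≠ j) (hkl : k ≠ l) (hik : i ≠ k)
    (hil : i ≠ l) (hjk : j ≠ k) (hjl : j ≠ l) (a b : F) : Commute (y i j a) (y k l b) := by
  obtain ⟨ζ, hζ⟩ := IsCyclic.exists_generator (α := Fˣ)
  have hz : (ζ : F) ≠ 0 := ζ.ne_zero
  have move : ∀ {T u u' v v' : G}, SemiconjBy T u u' → SemiconjBy T v v' → Commute u v →
      Commute u' v' := by
    intro T u u' v v' h1 h2 h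
    have e1 : u' = T * u * T⁻¹ := eq_mul_inv_of_mul_eq h1.eq.symm
    have e2 : v' = T * v * T⁻¹ := eq_mul_inv_of_mul_eq h2.eq.symm
    rw [e1, e2]
    simpa using h.map (MulAut.conj T).toMonoidHom
  have step : ∀ a, Commute (y i j a) (y k l 1) := by
    let K : AddSubgroup F :=
      { carrier := {a | Commute (y i j a) (y k l 1)}
        zero_mem' := by show Commute _ _; rw [D.y_zero hij]; exact Commute.one_left _
        add_mem' := fun {a b} ha hb => by
          show Commute _ _; rw [← D.y_add hij]; exact Commute.mul_left ha hb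
        neg_mem' := fun {a} ha => by
          show Commute _ _; rw [D.y_neg hij]; exact Commute.inv_left ha }
    refine all_mem_of_mul_closed hζ 2 (Or.inl rfl) K (fun a ha => ?_)
      (D.disj_one hij hkl hik hil hjk hjl)
    show Commute _ _
    -- scale `a` by `ζ²`, fix `1`
    have A1 := (D.torus_semiconj hij hjk hik hz ((ζ : F) * a)).1
    have A2 := (D.torus_semiconj hij hjk hik hz a).2.2.2
    have B1 := (D.torus_semiconj hkl hil.symm hik.symm hz ((ζ : F) * 1)).2.1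
    have B2 := (D.torus_semiconj hkl hjl.symm hjk.symm hz (1 : F)).1
    refine move (T := D.torus i k (ζ : F) * D.torus k j (ζ : F)) ?_ ?_ ha
    · rw [pow_two, mul_assoc]; exact A1.mul_left A2
    · have h := B1.mul_left B2
      rwa [inv_mul_cancel_left₀ hz] at h
  let K : AddSubgroup F :=
    { carrier := {b | Commute (y i j a) (y k l b)}
      zero_mem' := by show Commute _ _; rw [D.y_zero hkl]; exact Commute.one_right _
      add_mem' := fun {b c} hb hc => by
        show Commute _ _; rw [← D.y_add hkl]; exact Commute.mul_right hb hc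
      neg_mem' := fun {b} hb => by
        show Commute _ _; rw [D.y_neg hkl]; exact Commute.inv_right hb }
  refine all_mem_of_mul_closed hζ 2 (Or.inl rfl) K (fun b hb => ?_) (step a) b
  show Commute _ _
  have A1 := (D.torus_semiconj hij hjk hik hz ((ζ : F) * a)).2.1
  have A2 := (D.torus_semiconj hij hjk hik hz a).2.2.2
  have B1 := (D.torus_semiconj hkl hil.symm hik.symm hz ((ζ : F) * b)).1
  have B2 := (D.torus_semiconj hkl hjl.symm hjk.symm hz b).1
  refine move (T := D.torus k i (ζ : F) * D.torus k j (ζ : F)) ?_ ?_ hb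
  · have h := A1.mul_left A2
    rwa [inv_mul_cancel_left₀ hz] at h
  · rw [pow_two, mul_assoc]; exact B1.mul_left B2

theorem exists_hom [Fintype F] : ∃ Φ : Matrix.SpecialLinearGroup (Fin n) F →* G,
    ∀ i j (_ : i ≠ j) (a : F), Φ (tv i j a) = y i j a := by
  have hcomm : ∀ i j k l : Fin n, i ≠ j → k ≠ l → j ≠ k → i ≠ l → ∀ a b : F,
      y i j a * y k l b = y k l b * y i j a := by
    intro i j k l hij hkl hjk hil a b
    by_cases hik : i = k
    · subst hik
      by_cases hjl : j = l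
      · subst hjl; rw [D.y_add hij, D.y_add hij, add_comm]
      · exact D.comm_row hij hjl hil a b
    · by_cases hjl : j = l
      · subst hjl; exact D.comm_col hik hkl hij a b
      · exact D.disjoint_comm hij hkl hik hil hjk hjl a b
  obtain ⟨Φ, hΦ⟩ := exists_hom_of_relations (by rw [Fintype.card_fin]; omega) (yv hn rho lam)
    (fun i j h => D.y_add h) hcomm (fun i j k h1 h2 h3 => D.chev h1 h2 h3)
  exact ⟨Φ, fun i j h a => by rw [tv_ne h, hΦ]⟩

end Glue

section Model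

/-- `SL₃` on the first three points. -/
theorem exists_embThree [Fintype F] (hn : 4 ≤ n) :
    ∃ E : Matrix.SpecialLinearGroup (Fin 3) F →* Matrix.SpecialLinearGroup (Fin n) F,
      ∀ r s (_ : r ≠ s) (a : F), E (tv r s a) = tv (pt3 hn r) (pt3 hn s) a := by
  have hne : ∀ {r s : Fin 3}, r ≠ s → pt3 hn r ≠ pt3 hn s := fun h => (pt3_inj hn).ne h
  obtain ⟨E, hE⟩ := exists_hom_of_relations (ι := Fin 3) (F := F) (by simp)
    (fun r s a => tv (pt3 hn r) (pt3 hn s) a)
    (fun r s h a b => (slSys (ι := Fin n) (F := F)).add (hne h) a b)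
    (fun r s t u h1 h2 h3 h4 a b =>
      (slSys (ι := Fin n) (F := F)).comm (hne h1) (hne h2) (hne h3) (hne h4) a b)
    (fun r s t h1 h2 h3 a b => (slSys (ι := Fin n) (F := F)).chev (hne h1) (hne h2) (hne h3) a b)
  exact ⟨E, fun r s h a => by rw [tv_ne h, hE]⟩

theorem altToSL_mulVec (z : alternatingGroup (Fin n)) (v : Fin n → F) :
    ((altToSL n F z : Matrix.SpecialLinearGroup (Fin n) F) : Matrix (Fin n) (Fin n) F).mulVec v =
      fun i => v (z.1⁻¹ i) := by
  change (Matrix.permMatrixHom (z : Perm (Fin n))).mulVec v = _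
  rw [Matrix.permMatrixHom_apply, Matrix.permMatrix_mulVec]
  rfl

theorem altToSL_conj (z : alternatingGroup (Fin n)) {i j : Fin n} (h : i ≠ j) (a : F) :
    altToSL n F z * tv i j a * (altToSL n F z)⁻¹ = tv (z.1 i) (z.1 j) a := by
  rw [mul_inv_eq_iff_eq_mul]
  refine CfsgLib.Classical.Linear.sl_ext_mulVec fun v => funext fun m => ?_
  have h' : z.1 i ≠ z.1 j := z.1.injective.ne h
  simp only [Matrix.SpecialLinearGroup.coe_mul, ← Matrix.mulVec_mulVec, altToSL_mulVec, tv_ne h,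
    tv_ne h', CfsgLib.Classical.Linear.transvection_mulVec]
  simp [Equiv.symm_apply_eq]

theorem cycleSL_eq : (cycleSL : Matrix.SpecialLinearGroup (Fin 3) F) =
    (slSys (ι := Fin 3) (F := F)).w 0 1 (-1) * (slSys (ι := Fin 3) (F := F)).w 1 2 (-1) := by
  simp only [RootSys.w, slSys, tv_ne (show (0 : Fin 3) ≠ 1 by decide),
    tv_ne (show (1 : Fin 3) ≠ 0 by decide), tv_ne (show (1 : Fin 3) ≠ 2 by decide),
    tv_ne (show (2 : Fin 3) ≠ 1 by decide)]
  refine CfsgLib.Classical.Linear.sl_ext_mulVec fun v => funext fun m => ?_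
  simp only [Matrix.SpecialLinearGroup.coe_mul, ← Matrix.mulVec_mulVec,
    CfsgLib.Classical.Linear.transvection_mulVec]
  fin_cases m <;> simp [cycleSL, Matrix.mulVec, dotProduct, Fin.sum_univ_three]

theorem embThree_cycle [Fintype F] (hn : 4 ≤ n)
    {E : Matrix.SpecialLinearGroup (Fin 3) F →* Matrix.SpecialLinearGroup (Fin n) F}
    (hE : ∀ r s (_ : r ≠ s) (a : F), E (tv r s a) = tv (pt3 hn r) (pt3 hn s) a)
    {c : alternatingGroup (Fin n)} (hc : ∀ r : Fin 3, c.1 (pt3 hn r) = pt3 hn (r + 1))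
    (hfix : ∀ x, (∀ r, x ≠ pt3 hn r) → c.1 x = x) : E cycleSL = altToSL n F c := by
  have hne : ∀ {r s : Fin 3}, r ≠ s → pt3 hn r ≠ pt3 hn s := fun h => (pt3_inj hn).ne h
  rw [cycleSL_eq, RootSys.w, RootSys.w]
  simp only [map_mul, slSys]
  rw [hE 0 1 (by decide), hE 1 0 (by decide), hE 1 2 (by decide), hE 2 1 (by decide)]
  simp only [tv_ne (hne (show (0 : Fin 3) ≠ 1 by decide)), tv_ne (hne (show (1 : Fin 3) ≠ 0 by decide)),
    tv_ne (hne (show (1 : Fin 3) ≠ 2 by decide)), tv_ne (hne (show (2 : Fin 3) ≠ 1 by decide))]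
  refine CfsgLib.Classical.Linear.sl_ext_mulVec fun v => funext fun m => ?_
  simp only [Matrix.SpecialLinearGroup.coe_mul, ← Matrix.mulVec_mulVec, altToSL_mulVec,
    CfsgLib.Classical.Linear.transvection_mulVec]
  have n01 := hne (show (0 : Fin 3) ≠ 1 by decide)
  have n02 := hne (show (0 : Fin 3) ≠ 2 by decide)
  have n12 := hne (show (1 : Fin 3) ≠ 2 by decide)
  by_cases h0 : m = pt3 hn 0
  · subst h0
    rw [show (c.1⁻¹ : Perm (Fin n)) (pt3 hn 0) = pt3 hn 2 from Perm.inv_eq_iff_eq.2 (hc 2).symm]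
    simp [n01, n01.symm, n02, n02.symm, n12, n12.symm]
  by_cases h1 : m = pt3 hn 1
  · subst h1
    rw [show (c.1⁻¹ : Perm (Fin n)) (pt3 hn 1) = pt3 hn 0 from Perm.inv_eq_iff_eq.2 (hc 0).symm]
    simp [n01, n01.symm, n02, n02.symm, n12, n12.symm]
  by_cases h2 : m = pt3 hn 2
  · subst h2
    rw [show (c.1⁻¹ : Perm (Fin n)) (pt3 hn 2) = pt3 hn 1 from Perm.inv_eq_iff_eq.2 (hc 1).symm]
    simp [n01, n01.symm, n02, n02.symm, n12, n12.symm]
  · rw [show (c.1⁻¹ : Perm (Fin n)) m = m from Perm.inv_eq_iff_eq.2 (hfix m fun r => by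
      fin_cases r <;> assumption).symm]
    simp [h0, h1, h2]

theorem model_surjective [Fintype F] (hn : 4 ≤ n)
    {E : Matrix.SpecialLinearGroup (Fin 3) F →* Matrix.SpecialLinearGroup (Fin n) F}
    (hE : ∀ r s (_ : r ≠ s) (a : F), E (tv r s a) = tv (pt3 hn r) (pt3 hn s) a)
    (H : Subgroup (Matrix.SpecialLinearGroup (Fin n) F)) (h1 : ∀ g, E g ∈ H)
    (h2 : ∀ z, altToSL n F z ∈ H) : H = ⊤ := by
  refine CfsgLib.Classical.Linear.eq_top_of_transvection_mem fun i j h a => ?_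
  obtain ⟨τ, t0, t1⟩ := exists_alt_two hn h
  have hne : pt hn 0 ≠ pt hn 1 := pt_ne hn (by decide)
  rw [← tv_ne h, ← t0, ← t1, ← altToSL_conj τ hne,
    show tv (pt hn 0) (pt hn 1) a = E (tv 0 1 a) from (hE 0 1 (by decide) a).symm]
  exact H.mul_mem (H.mul_mem (h2 τ) (h1 _)) (H.inv_mem (h2 τ))

/-- The universal property. -/
theorem Glue.exists_lift [Fintype F] {hn : 4 ≤ n} {rho : alternatingGroup (Fin n) →* G}
    {lam : Matrix.SpecialLinearGroup (Fin 3) F →* G} (D : Glue hn rho lam)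
    {E : Matrix.SpecialLinearGroup (Fin 3) F →* Matrix.SpecialLinearGroup (Fin n) F}
    (hE : ∀ r s (_ : r ≠ s) (a : F), E (tv r s a) = tv (pt3 hn r) (pt3 hn s) a) :
    ∃ Φ : Matrix.SpecialLinearGroup (Fin n) F →* G, Φ.comp E = lam ∧
      Φ.comp (altToSL n F) = rho := by
  obtain ⟨Φ, hΦ⟩ := D.exists_hom
  have hlam : Φ.comp E = lam := CfsgLib.Classical.Linear.sl_hom_ext fun r s h a => by
    rw [← tv_ne h, MonoidHom.comp_apply, hE r s h, hΦ _ _ ((pt3_inj hn).ne h), D.lam_tv h]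
  refine ⟨Φ, hlam, ?_⟩
  obtain ⟨c, hc, hfix, hlc⟩ := D.cyc
  have hΦc : Φ (altToSL n F c) = rho c := by
    rw [← embThree_cycle hn hE hc hfix, hlc, ← hlam]; rfl
  -- conjugation by `rho z` and by `Φ (perm z)` agree on the image of `Φ`
  have hconj : ∀ z g, Φ (altToSL n F z) * Φ g * (Φ (altToSL n F z))⁻¹ =
      rho z * Φ g * (rho z)⁻¹ := by
    intro z
    refine DFunLike.congr_fun (f := (MulAut.conj (Φ (altToSL n F z))).toMonoidHom.comp Φ)
      (g := (MulAut.conj (rho z)).toMonoidHom.comp Φ)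
      (CfsgLib.Classical.Linear.sl_hom_ext fun i j h a => ?_)
    simp only [MonoidHom.comp_apply, MulEquiv.toMonoidHom_eq_coe, MonoidHom.coe_coe,
      MulAut.conj_apply, ← tv_ne h]
    rw [hΦ i j h, D.equiv_y z h, ← hΦ _ _ (z.1.injective.ne h), ← altToSL_conj z h, map_mul,
      map_mul, map_inv, hΦ i j h]
  let K : Subgroup (alternatingGroup (Fin n)) := (Φ.comp (altToSL n F)).eqLocus rho
  have hK : ∀ z, z * c * z⁻¹ ∈ K := fun z => by
    show Φ (altToSL n F (z * c * z⁻¹)) = rho (z * c * z⁻¹)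
    rw [map_mul, map_mul, map_inv, map_mul, map_mul, map_inv, hconj, hΦc, map_mul, map_mul, map_inv]
  suffices h : alternatingGroup (Fin n) ≤ K.map (alternatingGroup (Fin n)).subtype by
    refine MonoidHom.ext fun z => ?_
    obtain ⟨w, hw, e⟩ := h z.2
    rw [← Subtype.ext e]
    exact hw
  refine (Equiv.Perm.closure_three_cycles_eq_alternating.ge).trans ((Subgroup.closure_le _).2 ?_)
  intro σ hσ
  obtain ⟨x, hx⟩ : σ.support.Nonempty := by
    rw [Finset.nonempty_iff_ne_empty, Ne, Perm.support_eq_empty_iff]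
    rintro rfl
    have := hσ.card_support
    simp at this
  have hx' : σ x ≠ x := Perm.mem_support.1 hx
  have hx2 : σ (σ x) ≠ σ x := fun e => hx' (σ.injective e)
  have hord : σ (σ (σ x)) = x := by
    have := Equiv.congr_fun (orderOf_dvd_iff_pow_eq_one.1 hσ.orderOf.dvd) x
    simpa [pow_succ, Perm.mul_apply] using this
  have hx3 : σ (σ x) ≠ x := fun e => hx' (by rw [e] at hord; exact hord)
  obtain ⟨τ, hτ⟩ := exists_perm_map (pt3 hn) ![x, σ x, σ (σ x)] (pt3_inj hn) (by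
    intro a b
    fin_cases a <;> fin_cases b <;>
      simp [hx', hx2, hx3, hx'.symm, hx2.symm, hx3.symm])
  have hsupp : σ.support = {x, σ x, σ (σ x)} := by
    refine (Finset.eq_of_subset_of_card_le ?_ ?_).symm
    · simp only [Finset.insert_subset_iff, Finset.singleton_subset_iff, Perm.apply_mem_support]
      exact ⟨hx, hx, hx⟩
    · rw [hσ.card_support, Finset.card_insert_of_notMem, Finset.card_pair hx2.symm]
      simp [hx'.symm, hx3.symm]
  have hτc : τ * c.1 * τ⁻¹ = σ := by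
    ext m : 1
    rw [Perm.mul_apply, Perm.mul_apply]
    by_cases hm : ∃ r, τ (pt3 hn r) = m
    · obtain ⟨r, rfl⟩ := hm
      rw [show τ⁻¹ (τ (pt3 hn r)) = pt3 hn r from τ.symm_apply_apply _, hc, hτ, hτ]
      fin_cases r
      · rfl
      · rfl
      · exact hord.symm
    · push Not at hm
      have hm' : σ m = m := by
        refine Perm.notMem_support.1 ?_
        rw [hsupp]
        simp only [Finset.mem_insert, Finset.mem_singleton, not_or]
        exact ⟨fun e => hm 0 ((hτ 0).trans e.symm), fun e => hm 1 ((hτ 1).trans e.symm),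
          fun e => hm 2 ((hτ 2).trans e.symm)⟩
      rw [hm', hfix _ (fun r e => hm r (by rw [← e]; exact τ.apply_symm_apply _))]
      exact τ.apply_symm_apply _
  rcases Int.units_eq_one_or (Perm.sign τ) with hs | hs
  · refine ⟨(⟨τ, hs⟩ : alternatingGroup (Fin n)) * c * (⟨τ, hs⟩ : alternatingGroup (Fin n))⁻¹,
      hK _, ?_⟩
    simp only [Subgroup.coe_subtype, Subgroup.coe_mul, Subgroup.coe_inv]
    exact hτc
  · -- replace `τ` by an odd swap, which inverts `c`
    set u : Perm (Fin n) := τ * swap (pt3 hn 0) (pt3 hn 1) with hu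
    have hus : Perm.sign u = 1 := by
      rw [hu, map_mul, hs, Perm.sign_swap ((pt3_inj hn).ne (by decide))]; rfl
    refine ⟨((⟨u, hus⟩ : alternatingGroup (Fin n)) * c *
      (⟨u, hus⟩ : alternatingGroup (Fin n))⁻¹)⁻¹, K.inv_mem (hK _), ?_⟩
    have hsw : swap (pt3 hn 0) (pt3 hn 1) * c.1 * swap (pt3 hn 0) (pt3 hn 1) = c.1⁻¹ := by
      rw [eq_inv_iff_mul_eq_one]
      ext m : 1
      simp only [Perm.mul_apply, Perm.one_apply]
      by_cases hm : ∀ r, m ≠ pt3 hn r
      · rw [hfix m hm, swap_apply_of_ne_of_ne (hm 0) (hm 1), hfix m hm,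
          swap_apply_of_ne_of_ne (hm 0) (hm 1)]
      · push Not at hm
        obtain ⟨r, rfl⟩ := hm
        fin_cases r <;>
          simp [hc, swap_apply_of_ne_of_ne, (pt3_inj hn).eq_iff]
    rw [← hτc]
    simp only [Subgroup.coe_subtype, Subgroup.coe_mul, Subgroup.coe_inv]
    rw [hu, mul_inv_rev, inv_inv, mul_inv_rev, mul_inv_rev, Equiv.swap_inv]
    calc τ * swap (pt3 hn 0) (pt3 hn 1) * (c.1⁻¹ * (swap (pt3 hn 0) (pt3 hn 1) * τ⁻¹))
        = τ * (swap (pt3 hn 0) (pt3 hn 1) * c.1⁻¹ * swap (pt3 hn 0) (pt3 hn 1)) * τ⁻¹ := by group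
      _ = τ * c.1 * τ⁻¹ := by
        rw [← hsw]
        simp only [← mul_assoc, Equiv.swap_mul_self, one_mul]
        simp only [mul_assoc, Equiv.swap_mul_self, mul_one]

end Model

end CfsgLib.SLPres77
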