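import Mathlib
import Cfsg.Agent.AltPres54.Carmichael
import Cfsg.Agent.AltPres54.Cert
import Cfsg.Agent.AltPres54.Family
import Cfsg.Agent.SLPres77.Steinberg

/-!
An element fixing three points and one conjugate generate the alternating group on all points but
two; a presentation of the alternating group of degree four.
-/

set_option autoImplicit false

open Equiv

namespace CfsgLib.SLPres77

open CfsgLib.AltPres54

section Core

variable {α : Type*} [DecidableEq α] [Fintype α]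

theorem five_points {H : Subgroup (Perm α)} (ι : Fin 5 ↪ α) (hA : tri (ι 1) (ι 2) (ι 3) ∈ H)
    (hB : tri (ι 0) (ι 2) (ι 4) ∈ H) :
    tri (ι 0) (ι 2) (ι 1) ∈ H ∧ tri (ι 0) (ι 2) (ι 3) ∈ H := by
  rw [← via_tri] at hA hB
  rw [← via_tri, ← via_tri]
  set f := Perm.viaEmbeddingHom ι
  have e1 : tri (0 : Fin 5) 2 1 =
      (tri 1 2 3)⁻¹ * (tri 0 2 4)⁻¹ * tri 1 2 3 * tri 0 2 4 := by decide +kernel
  have e2 : tri (0 : Fin 5) 2 3 =
      tri 1 2 3 * (tri 0 2 4)⁻¹ * (tri 1 2 3)⁻¹ * tri 0 2 4 := by decide +kernel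
  constructor
  · rw [e1, map_mul, map_mul, map_mul, map_inv, map_inv]
    exact H.mul_mem (H.mul_mem (H.mul_mem (H.inv_mem hA) (H.inv_mem hB)) hA) hB
  · rw [e2, map_mul, map_mul, map_mul, map_inv, map_inv]
    exact H.mul_mem (H.mul_mem (H.mul_mem hA (H.inv_mem hB)) (H.inv_mem hA)) hB

theorem spread {H : Subgroup (Perm α)} (ι : Fin 5 ↪ α) (S : Finset α) (C D : Perm α)
    (hA : tri (ι 1) (ι 2) (ι 3) ∈ H) (hB : tri (ι 0) (ι 2) (ι 4) ∈ H) (hC : C ∈ H) (hD : D ∈ H)
    (hC0 : C (ι 0) = ι 0) (hC2 : C (ι 2) = ι 2) (hD0 : D (ι 0) = ι 0) (hD2 : D (ι 2) = ι 2)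
    (hS : ∀ j, ι j ∈ S)
    (hcov : ∀ i ∈ S, (∃ j, ι j = i) ∨ (∃ k : ℕ, (C ^ k) (ι 4) = i) ∨
      ∃ k : ℕ, ∃ z : Fin 5, (z = 1 ∨ z = 3) ∧ (D ^ k) (ι z) = i) :
    altOn S ≤ H := by
  obtain ⟨h1, h3⟩ := five_points ι hA hB
  have pow_fix : ∀ (T : Perm α) (x : α), T x = x → ∀ k : ℕ, (T ^ k) x = x := by
    intro T x h k
    induction k with
    | zero => rfl
    | succ k ih => rw [pow_succ, Perm.mul_apply, h, ih]
  refine (altOn_le_closure (hS 0) (hS 2) (ι.injective.ne (by decide))).trans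
    ((Subgroup.closure_le H).2 ?_)
  rintro _ ⟨i, hi, hi0, hi2, rfl⟩
  rcases hcov i hi with ⟨j, rfl⟩ | ⟨k, rfl⟩ | ⟨k, z, hz, rfl⟩
  · fin_cases j
    · exact absurd rfl hi0
    · exact h1
    · exact absurd rfl hi2
    · exact h3
    · exact hB
  · have e := conj_tri (C ^ k) (ι 0) (ι 2) (ι 4)
    rw [pow_fix C _ hC0, pow_fix C _ hC2] at e
    rw [← e]
    exact H.mul_mem (H.mul_mem (H.pow_mem hC k) hB) (H.inv_mem (H.pow_mem hC k))
  · have e := conj_tri (D ^ k) (ι 0) (ι 2) (ι z)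
    rw [pow_fix D _ hD0, pow_fix D _ hD2] at e
    rw [← e]
    refine H.mul_mem (H.mul_mem (H.pow_mem hD k) ?_) (H.inv_mem (H.pow_mem hD k))
    rcases hz with rfl | rfl
    · exact h1
    · exact h3

/-- Separating a three-cycle from a commuting element of order prime to three. -/
theorem split_mem {H : Subgroup (Perm α)} {A C : Perm α} (hA : A ^ 3 = 1) {l : ℕ} (hC : C ^ l = 1)
    (hl : l % 3 ≠ 0) (hcomm : Commute A C) (h : A * C ∈ H) : A ∈ H ∧ C ∈ H := by
  have h1 : (A * C) ^ (l * l) = A := by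
    rw [hcomm.mul_pow, pow_mul C, hC, one_pow, mul_one, ← Nat.mod_add_div (l * l) 3, pow_add,
      pow_mul A 3, hA, one_pow, mul_one, Nat.mul_mod]
    have : l % 3 = 1 ∨ l % 3 = 2 := by omega
    rcases this with e | e <;> simp [e]
  have hAm : A ∈ H := by rw [← h1]; exact H.pow_mem h _
  refine ⟨hAm, ?_⟩
  have := H.mul_mem (H.inv_mem hAm) h
  rwa [inv_mul_cancel_left] at this

end Core

variable {n : ℕ}

/-- All points but the first two. -/
def upper (n : ℕ) : Finset (Fin n) := Finset.univ.filter fun x => 2 ≤ x.val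

theorem mem_upper {x : Fin n} : x ∈ upper n ↔ 2 ≤ x.val := by simp [upper]

theorem mem_altOn_upper (hn : 4 ≤ n) {z : alternatingGroup (Fin n)}
    (h0 : z.1 (pt hn 0) = pt hn 0) (h1 : z.1 (pt hn 1) = pt hn 1) : z.1 ∈ altOn (upper n) := by
  refine ⟨z.2, fun x hx => ?_⟩
  rw [mem_upper, not_le] at hx
  rcases (show x.val = 0 ∨ x.val = 1 by omega) with e | e
  · rw [show x = pt hn 0 from Fin.ext e, h0]
  · rw [show x = pt hn 1 from Fin.ext e, h1]

/-- What the gluing needs from the alternating group. -/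
def GenPair (hn : 4 ≤ n) : Prop :=
  ∃ a e : alternatingGroup (Fin n), (∀ r : Fin 3, a.1 (pt3 hn r) = pt3 hn r) ∧
    e.1 (pt hn 0) = pt hn 1 ∧ e.1 (pt hn 1) = pt hn 0 ∧
    altOn (upper n) ≤ Subgroup.closure {a.1, e.1⁻¹ * a.1 * e.1}

theorem genPair_of (hn : 4 ≤ n) (a p : Perm (Fin n)) (ha : Perm.sign a = 1)
    (hp : Perm.sign p = -1) (hfix : ∀ x : Fin n, x.val < 3 → a x = x)
    (hp01 : ∀ x : Fin n, x.val < 2 → p x = x)
    (hgen : altOn (upper n) ≤ Subgroup.closure {a, p * a * p⁻¹}) : GenPair hn := by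
  set s : Perm (Fin n) := swap (pt hn 0) (pt hn 1)
  have hsa : s * a = a * s := by
    have e := Equiv.swap_apply_apply a (pt hn 0) (pt hn 1)
    rw [hfix (pt hn 0) (by simp [pt]), hfix (pt hn 1) (by simp [pt])] at e
    exact (eq_mul_inv_iff_mul_eq.1 e).symm ▸ rfl
  have hsp : s * p = p * s := by
    have e := Equiv.swap_apply_apply p (pt hn 0) (pt hn 1)
    rw [hp01 (pt hn 0) (by simp [pt]), hp01 (pt hn 1) (by simp [pt])] at e
    exact (eq_mul_inv_iff_mul_eq.1 e).symm ▸ rfl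
  have hs : Perm.sign (s * p)⁻¹ = 1 := by
    rw [map_inv, map_mul, hp, Perm.sign_swap (pt_ne hn (by decide))]; rfl
  refine ⟨⟨a, ha⟩, ⟨(s * p)⁻¹, hs⟩, fun r => hfix _ r.isLt, ?_, ?_, ?_⟩
  · rw [Perm.inv_eq_iff_eq, Perm.mul_apply, hp01 _ (by simp [pt]), swap_apply_right]
  · rw [Perm.inv_eq_iff_eq, Perm.mul_apply, hp01 _ (by simp [pt]), swap_apply_left]
  · have : ((s * p)⁻¹)⁻¹ * a * (s * p)⁻¹ = p * a * p⁻¹ := by
      rw [inv_inv, mul_inv_rev, Equiv.swap_inv]
      calc s * p * a * (p⁻¹ * s) = p * (s * a) * (p⁻¹ * s) := by rw [hsp]; group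
        _ = p * a * (s * p⁻¹ * s) := by rw [hsa]; group
        _ = p * a * p⁻¹ := by
          have : s * p⁻¹ * s = p⁻¹ := by
            rw [eq_inv_iff_mul_eq_one, mul_assoc, hsp]
            simp only [mul_assoc, inv_mul_cancel_left]
            exact Equiv.swap_mul_self _ _
          rw [this]
    simp only [this]
    exact hgen

theorem gen_of_words {a p : Perm (Fin n)} (w : ℕ → List ℕ) {x y : Fin n}
    (hx : x.val = 2) (hy : y.val = 3)
    (hw : ∀ i : Fin n, 4 ≤ i.val →
      evalWord [a, p * a * p⁻¹, a⁻¹, p * a⁻¹ * p⁻¹] (w i.val) = tri x y i) :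
    altOn (upper n) ≤ Subgroup.closure {a, p * a * p⁻¹} := by
  set K := Subgroup.closure {a, p * a * p⁻¹}
  have hxy : x ≠ y := fun e => by rw [e] at hx; omega
  refine (altOn_le_closure (mem_upper.2 (by omega)) (mem_upper.2 (by omega)) hxy).trans
    ((Subgroup.closure_le K).2 ?_)
  rintro _ ⟨i, hi, hix, hiy, rfl⟩
  rw [mem_upper] at hi
  have : 4 ≤ i.val := by
    have h1 : i.val ≠ 2 := fun e => hix (Fin.ext (e.trans hx.symm))
    have h2 : i.val ≠ 3 := fun e => hiy (Fin.ext (e.trans hy.symm))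
    omega
  rw [← hw i this]
  have h1 : a ∈ K := Subgroup.subset_closure (Or.inl rfl)
  have h2 : p * a * p⁻¹ ∈ K := Subgroup.subset_closure (Or.inr rfl)
  refine evalWord_mem ?_ _
  intro g hg
  simp only [List.mem_cons, List.not_mem_nil, or_false] at hg
  rcases hg with rfl | rfl | rfl | rfl
  · exact h1
  · exact h2
  · exact K.inv_mem h1
  · simpa [mul_assoc] using K.inv_mem h2

theorem genPair_six : GenPair (n := 6) (by norm_num) :=
  genPair_of _ (permOf [(3, 4), (4, 5)]) (permOf [(2, 3)]) (by decide +kernel) (by decide +kernel)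
    (by decide +kernel) (by decide +kernel)
    (gen_of_words (x := 2) (y := 3)
      (fun i => if i = 4 then [0, 3] else [2, 1]) rfl rfl (by decide +kernel))

/-- A cycle on `l` consecutive points starting at `6`. -/
noncomputable def interval {l : ℕ} (h : 6 + l ≤ n) : Perm (Fin n) :=
  Perm.viaEmbeddingHom ((Fin.natAddEmb 6).trans (Fin.castLEEmb h)) (finRotate l)

theorem interval_apply_out {l : ℕ} (h : 6 + l ≤ n) {x : Fin n} (hx : x.val < 6 ∨ 6 + l ≤ x.val) :
    interval h x = x := by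
  rw [interval, Perm.viaEmbeddingHom_apply]
  refine Perm.viaEmbedding_apply_of_notMem _ _ _ ?_
  rintro ⟨i, rfl⟩
  simp at hx
  omega

theorem finRotate_pow_val (l k : ℕ) (i : Fin (l + 1)) :
    ((finRotate (l + 1) ^ k) i).val = (i.val + k) % (l + 1) := by
  induction k with
  | zero => simp [Nat.mod_eq_of_lt i.isLt]
  | succ k ih =>
    rw [pow_succ', Perm.mul_apply, finRotate_apply, Fin.val_add, ih, Fin.val_one',
      ← Nat.add_mod, Nat.add_assoc]

theorem interval_pow_apply {l : ℕ} (h : 6 + l ≤ n) {k : ℕ} (hk : k < l) :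
    (interval h ^ k) ⟨6, by omega⟩ = ⟨6 + k, by omega⟩ := by
  obtain ⟨m, rfl⟩ : ∃ m, l = m + 1 := ⟨l - 1, by omega⟩
  rw [interval, ← map_pow, Perm.viaEmbeddingHom_apply]
  set ι : Fin (m + 1) ↪ Fin n := (Fin.natAddEmb 6).trans (Fin.castLEEmb h) with hι
  rw [show (⟨6, by omega⟩ : Fin n) = ι 0 from Fin.ext (by simp [hι]), Perm.viaEmbedding_apply]
  apply Fin.ext
  simp [hι, finRotate_pow_val, Nat.mod_eq_of_lt hk]

theorem interval_pow {l : ℕ} (h : 6 + l ≤ n) : interval h ^ l = 1 := by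
  rw [interval, ← map_pow]
  suffices h' : finRotate l ^ l = 1 by rw [h', map_one]
  rcases Nat.eq_zero_or_pos l with rfl | hl
  · rfl
  obtain ⟨m, rfl⟩ : ∃ m, l = m + 1 := ⟨l - 1, by omega⟩
  ext i : 2
  rw [finRotate_pow_val, Nat.add_mod_right, Nat.mod_eq_of_lt i.isLt]
  rfl

theorem genPair_large (hn : 4 ≤ n) {l k : ℕ} (hl : l % 2 = 1) (hl3 : l % 3 ≠ 0)
    (hk : k = 0 ∨ k + 1 ≤ l) (hnk : n = 6 + l + k) : GenPair hn := by
  have hC : 6 + l ≤ n := by omega
  have hn7 : 7 ≤ n := by omega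
  let ι : Fin 5 ↪ Fin n := ⟨fun i => ⟨2 + i.val, by omega⟩,
    fun i j e => Fin.ext (by have := congrArg Fin.val e; simp at this; omega)⟩
  have hι : ∀ j, (ι j).val = 2 + j.val := fun _ => rfl
  set C := interval hC
  set A := tri (ι 1) (ι 2) (ι 3)
  have hιne : ∀ {i j : Fin 5}, i ≠ j → ι i ≠ ι j := fun h => ι.injective.ne h
  have hA3 : A ^ 3 = 1 :=
    tri_pow_three (hιne (by decide)) (hιne (by decide)) (hιne (by decide))
  have hCs : Perm.sign C = 1 := by
    have h := congrArg Perm.sign (interval_pow hC)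
    rw [map_pow, map_one] at h
    rcases Int.units_eq_one_or (Perm.sign C) with e | e
    · exact e
    · rw [e, show l = 2 * (l / 2) + 1 by omega, pow_succ, pow_mul] at h
      simp at h
  have hAC : Commute A C := by
    have e := conj_tri C (ι 1) (ι 2) (ι 3)
    have hf : ∀ j : Fin 5, j.val < 4 → C (ι j) = ι j := fun j hj =>
      interval_apply_out hC (Or.inl (by rw [hι]; omega))
    rw [hf 1 (by decide), hf 2 (by decide), hf 3 (by decide)] at e
    exact eq_mul_inv_iff_mul_eq.1 e.symm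
  -- the involution exchanging the left over points with points of the cycle
  let f : Fin n → Fin n := fun x =>
    if h : 7 ≤ x.val ∧ x.val < 7 + k then ⟨x.val - 7 + (6 + l), by omega⟩
    else if h' : 6 + l ≤ x.val then ⟨x.val - (6 + l) + 7, by omega⟩ else x
  have hf : Function.Involutive f := by
    intro x
    have := x.isLt
    by_cases h1 : 7 ≤ x.val ∧ x.val < 7 + k
    · apply Fin.ext
      simp only [f, dif_pos h1]
      rw [dif_neg (by simp; omega), dif_pos (by simp)]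
      simp; omega
    by_cases h2 : 6 + l ≤ x.val
    · apply Fin.ext
      simp only [f, dif_neg h1, dif_pos h2]
      rw [dif_pos (by simp; omega)]
      simp; omega
    · simp only [f, dif_neg h1, dif_neg h2]
  set q : Perm (Fin n) := hf.toPerm f
  have hq : ∀ x : Fin n, x.val < 7 → q x = x := by
    intro x hx
    show f x = x
    simp only [f]
    rw [dif_neg (by omega), dif_neg (by omega)]
  set P1 : Perm (Fin n) := swap (ι 0) (ι 1) * swap (ι 3) (ι 4)
  set P : Perm (Fin n) := if Perm.sign q = -1 then P1 else swap (ι 1) (ι 3) * P1 with hP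
  have hP1s : Perm.sign P1 = 1 := by
    rw [map_mul, Perm.sign_swap (hιne (by decide)), Perm.sign_swap (hιne (by decide))]; rfl
  have hps : Perm.sign (P * q) = -1 := by
    rw [map_mul, hP]
    rcases Int.units_eq_one_or (Perm.sign q) with e | e
    · rw [if_neg (by rw [e]; decide), map_mul, hP1s, Perm.sign_swap (hιne (by decide)), e]; rfl
    · rw [if_pos e, hP1s, e]; rfl
  have hPout : ∀ x, (∀ j, x ≠ ι j) → P x = x := by
    intro x hx
    rw [hP]
    split_ifs <;>
      simp [P1, Perm.mul_apply, swap_apply_of_ne_of_ne, hx]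
  have hP0 : P (ι 1) = ι 0 ∧ P (ι 2) = ι 2 ∧ P (ι 3) = ι 4 ∧ (P (ι 4) = ι 1 ∨ P (ι 4) = ι 3) := by
    rw [hP]
    split_ifs <;>
      simp [P1, Perm.mul_apply, swap_apply_def, ι.injective.eq_iff]
  obtain ⟨hP1', hP2', hP3', hP4'⟩ := hP0
  have hp : ∀ j : Fin 5, (P * q) (ι j) = P (ι j) := fun j => by
    rw [Perm.mul_apply, hq (ι j) (by rw [hι]; omega)]
  set p := P * q with hpdef
  refine genPair_of hn (A * C) p (by rw [map_mul, hCs, sign_tri (hιne (by decide))
    (hιne (by decide)), one_mul]) hps ?_ ?_ ?_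
  · intro x hx
    have hne : ∀ j : Fin 5, 1 ≤ j.val → x ≠ ι j := fun j hj e => by
      rw [e, hι] at hx; omega
    rw [Perm.mul_apply, interval_apply_out hC (Or.inl (by omega)),
      tri_other (hne 1 le_rfl) (hne 2 (by decide)) (hne 3 (by decide))]
  · intro x hx
    rw [hpdef, Perm.mul_apply, hq x (by omega),
      hPout x fun j e => by rw [e, hι] at hx; omega]
  set H := Subgroup.closure {A * C, p * (A * C) * p⁻¹}
  obtain ⟨hAm, hCm⟩ := split_mem hA3 (interval_pow hC) hl3 hAC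
    (Subgroup.subset_closure (Or.inl rfl) : A * C ∈ H)
  obtain ⟨hBm, hDm⟩ : p * A * p⁻¹ ∈ H ∧ p * C * p⁻¹ ∈ H := by
    refine split_mem (by rw [conj_pow, hA3, mul_one, mul_inv_cancel])
      (by rw [conj_pow, interval_pow hC, mul_one, mul_inv_cancel]) hl3 ?_ ?_
    · simpa using hAC.map (MulAut.conj p).toMonoidHom
    · have : p * A * p⁻¹ * (p * C * p⁻¹) = p * (A * C) * p⁻¹ := by group
      rw [this]
      exact Subgroup.subset_closure (Or.inr rfl)
  rw [conj_tri, hp, hp, hp, hP1', hP2', hP3'] at hBm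
  have hfix : ∀ j : Fin 5, j.val < 4 → C (ι j) = ι j := fun j hj =>
    interval_apply_out hC (Or.inl (by rw [hι]; omega))
  have hDfix : ∀ j' j : Fin 5, p (ι j') = ι j → j'.val < 4 →
      (p * C * p⁻¹) (ι j) = ι j := by
    intro j' j e hj
    rw [Perm.mul_apply, Perm.mul_apply, show p⁻¹ (ι j) = ι j' from Perm.inv_eq_iff_eq.2 e.symm,
      hfix j' hj, e]
  refine spread ι (upper n) C (p * C * p⁻¹) hAm hBm hCm hDm (hfix 0 (by decide))
    (hfix 2 (by decide)) (hDfix 1 0 ((hp 1).trans hP1') (by decide))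
    (hDfix 2 2 ((hp 2).trans hP2') (by decide))
    (fun j => mem_upper.2 (by rw [hι]; omega)) fun i hi => ?_
  rw [mem_upper] at hi
  by_cases h7 : i.val < 7
  · exact Or.inl ⟨⟨i.val - 2, by omega⟩, Fin.ext (by rw [hι]; simp; omega)⟩
  refine Or.inr ?_
  by_cases hil : i.val < 6 + l
  · refine Or.inl ⟨i.val - 6, ?_⟩
    rw [show ι 4 = ⟨6, by omega⟩ from Fin.ext (by rw [hι]; rfl), interval_pow_apply hC (by omega)]
    exact Fin.ext (by simp; omega)
  refine Or.inr ⟨1 + (i.val - (6 + l)), ?_⟩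
  have hz : ∃ z : Fin 5, (z = 1 ∨ z = 3) ∧ p (ι 4) = ι z := by
    rw [hp]
    rcases hP4' with e | e
    · exact ⟨1, Or.inl rfl, e⟩
    · exact ⟨3, Or.inr rfl, e⟩
  obtain ⟨z, hz, hze⟩ := hz
  refine ⟨z, hz, ?_⟩
  rw [← hze, show (p * C * p⁻¹) = MulAut.conj p C from rfl, ← map_pow, MulAut.conj_apply,
    Perm.mul_apply, Perm.mul_apply, show p⁻¹ (p (ι 4)) = ι 4 from p.symm_apply_apply _,
    show ι 4 = ⟨6, by omega⟩ from Fin.ext (by rw [hι]; rfl), interval_pow_apply hC (by omega),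
    hpdef, Perm.mul_apply]
  have hqi : q ⟨6 + (1 + (i.val - (6 + l))), by omega⟩ = i := by
    apply Fin.ext
    show (f _).val = _
    simp only [f]
    rw [dif_pos (by omega)]
    simp only []
    omega
  rw [hqi, hPout i fun j e => by rw [e, hι] at h7; omega]

theorem genPair_eight : GenPair (n := 8) (by norm_num) :=
  genPair_of _ (permOf [(3, 4), (4, 5), (5, 6), (6, 7)]) (permOf [(2, 3)]) (by decide +kernel)
    (by decide +kernel) (by decide +kernel) (by decide +kernel)
    (gen_of_words (x := 2) (y := 3) (fun i => if i = 4 then [0, 3] else if i = 5 then [0, 0, 3, 3]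
      else if i = 6 then [2, 2, 1, 1] else [2, 1]) rfl rfl (by decide +kernel))

theorem genPair_nine : GenPair (n := 9) (by norm_num) :=
  genPair_of _ (permOf [(3, 4), (4, 5), (5, 6), (6, 7)]) (permOf [(2, 3), (3, 8), (8, 4)])
    (by decide +kernel) (by decide +kernel) (by decide +kernel) (by decide +kernel)
    (gen_of_words (x := 2) (y := 3) (fun i => if i = 4 then [1, 0, 0, 1, 1, 0, 0]
      else if i = 5 then [1, 0, 3, 0, 1, 1, 0, 1] else if i = 6 then [3, 2, 2, 3, 2, 3, 3, 2]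
      else if i = 7 then [0, 0, 3, 3, 2, 2, 3, 0] else [0, 3, 2, 2, 3, 0, 0]) rfl rfl
      (by decide +kernel))

theorem genPair_ten : GenPair (n := 10) (by norm_num) :=
  genPair_of _ (permOf [(3, 4), (4, 5), (5, 6), (6, 7), (7, 8), (8, 9)]) (permOf [(2, 3)])
    (by decide +kernel) (by decide +kernel) (by decide +kernel) (by decide +kernel)
    (gen_of_words (x := 2) (y := 3) (fun i => if i = 4 then [0, 3] else if i = 5 then [0, 0, 3, 3]
      else if i = 6 then [0, 0, 0, 3, 3, 3] else if i = 7 then [2, 2, 2, 1, 1, 1]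
      else if i = 8 then [2, 2, 1, 1] else [2, 1]) rfl rfl (by decide +kernel))

/-- For every degree at least six. -/
theorem genPair (hn : 6 ≤ n) : GenPair (n := n) (by omega) := by
  by_cases h6 : n = 6
  · subst h6; exact genPair_six
  by_cases h8 : n = 8
  · subst h8; exact genPair_eight
  by_cases h9 : n = 9
  · subst h9; exact genPair_nine
  by_cases h10 : n = 10
  · subst h10; exact genPair_ten
  obtain ⟨r, rfl⟩ : ∃ r, n = 6 + r := ⟨n - 6, by omega⟩
  by_cases h1 : r % 2 = 1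
  · by_cases h3 : r % 3 = 0
    · exact genPair_large _ (l := r - 2) (k := 2) (by omega) (by omega) (by omega) (by omega)
    · exact genPair_large _ (l := r) (k := 0) h1 h3 (Or.inl rfl) rfl
  · by_cases h3 : (r - 1) % 3 = 0
    · exact genPair_large _ (l := r - 3) (k := 3) (by omega) (by omega) (by omega) (by omega)
    · exact genPair_large _ (l := r - 1) (k := 1) (by omega) h3 (by omega) (by omega)

end CfsgLib.SLPres77
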