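import Mathlib
import Cfsg.Agent.AltPres54.Carmichael
import Cfsg.Agent.S3377

/-!
Presentations of groups generated by two presented subgroups, of quotients by cyclic normal
subgroups, and of the alternating groups of degree four and five.
-/

set_option autoImplicit false

namespace CfsgLib.SLPres77

open Equiv

/-- Joining two presentations along relations between the subgroups. -/
theorem exists_pres_amalg {m k : ℕ} {A B H : Type*} [Group A] [Group B] [Group H]
    (RA : Finset (FreeGroup (Fin m))) (eA : PresentedGroup (↑RA : Set (FreeGroup (Fin m))) ≃* A)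
    (RB : Finset (FreeGroup (Fin k))) (eB : PresentedGroup (↑RB : Set (FreeGroup (Fin k))) ≃* B)
    (E : List (Monoid.Coprod A B)) (f : A →* H) (g : B →* H)
    (hE : ∀ w ∈ E, Monoid.Coprod.lift f g w = 1) (hgen : f.range ⊔ g.range = ⊤)
    (huniv : ∀ {G : Type} [Group G] (f' : A →* G) (g' : B →* G),
      (∀ w ∈ E, Monoid.Coprod.lift f' g' w = 1) → ∃ Φ : H →* G, Φ.comp f = f' ∧ Φ.comp g = g') :
    ∃ R : Finset (FreeGroup (Fin (m + k))), R.card ≤ RA.card + RB.card + E.length ∧
      Nonempty (PresentedGroup (↑R : Set (FreeGroup (Fin (m + k)))) ≃* H) := by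
  classical
  let ua : FreeGroup (Fin m) →* FreeGroup (Fin (m + k)) := FreeGroup.map (Fin.castAdd k)
  let ub : FreeGroup (Fin k) →* FreeGroup (Fin (m + k)) := FreeGroup.map (Fin.natAdd m)
  let W : FreeGroup (Fin (m + k)) →* Monoid.Coprod A B :=
    FreeGroup.lift (Fin.append (fun i => Monoid.Coprod.inl (eA (PresentedGroup.of i)))
      (fun i => Monoid.Coprod.inr (eB (PresentedGroup.of i))))
  have hWa : ∀ r, W (ua r) = Monoid.Coprod.inl (eA (PresentedGroup.mk _ r)) := fun r =>
    DFunLike.congr_fun (FreeGroup.ext_hom (W.comp ua)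
      ((Monoid.Coprod.inl.comp eA.toMonoidHom).comp (PresentedGroup.mk _))
      fun i => by simp [W, ua, PresentedGroup.of]) r
  have hWb : ∀ r, W (ub r) = Monoid.Coprod.inr (eB (PresentedGroup.mk _ r)) := fun r =>
    DFunLike.congr_fun (FreeGroup.ext_hom (W.comp ub)
      ((Monoid.Coprod.inr.comp eB.toMonoidHom).comp (PresentedGroup.mk _))
      fun i => by simp [W, ub, PresentedGroup.of]) r
  have hWsurj : Function.Surjective W := by
    intro w
    induction w using Monoid.Coprod.induction_on with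
    | inl a =>
      obtain ⟨r, hr⟩ := PresentedGroup.mk_surjective _ (eA.symm a)
      exact ⟨ua r, by rw [hWa, hr, MulEquiv.apply_symm_apply]⟩
    | inr b =>
      obtain ⟨r, hr⟩ := PresentedGroup.mk_surjective _ (eB.symm b)
      exact ⟨ub r, by rw [hWb, hr, MulEquiv.apply_symm_apply]⟩
    | mul x y hx hy =>
      obtain ⟨r, rfl⟩ := hx
      obtain ⟨s, rfl⟩ := hy
      exact ⟨r * s, map_mul W r s⟩
  choose word hword using hWsurj
  set R := RA.image ua ∪ RB.image ub ∪ (E.map word).toFinset with hR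
  refine ⟨R, ?_, ?_⟩
  · calc R.card ≤ (RA.image ua).card + (RB.image ub).card + (E.map word).toFinset.card :=
        (Finset.card_union_le _ _).trans (Nat.add_le_add_right (Finset.card_union_le _ _) _)
      _ ≤ RA.card + RB.card + E.length := by
        gcongr
        · exact Finset.card_image_le
        · exact Finset.card_image_le
        · exact (List.toFinset_card_le _).trans (by simp)
  set P := PresentedGroup (↑R : Set (FreeGroup (Fin (m + k))))
  have hone : ∀ r ∈ R, PresentedGroup.mk (↑R : Set (FreeGroup (Fin (m + k)))) r = 1 := fun r hr =>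
    PresentedGroup.one_of_mem (Finset.mem_coe.2 hr)
  let fa : A →* P := (PresentedGroup.toGroup (f := fun i => PresentedGroup.mk _ (ua (FreeGroup.of i)))
    (fun r hr => by
      have h : FreeGroup.lift (fun i => PresentedGroup.mk (↑R : Set (FreeGroup (Fin (m + k))))
          (ua (FreeGroup.of i))) = (PresentedGroup.mk _).comp ua :=
        FreeGroup.ext_hom _ _ fun i => by simp
      rw [h, MonoidHom.comp_apply]
      exact hone _ (by simp [hR, Finset.mem_coe.1 hr] ; exact Or.inl ⟨r, hr, rfl⟩))).comp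
    eA.symm.toMonoidHom
  let fb : B →* P := (PresentedGroup.toGroup (f := fun i => PresentedGroup.mk _ (ub (FreeGroup.of i)))
    (fun r hr => by
      have h : FreeGroup.lift (fun i => PresentedGroup.mk (↑R : Set (FreeGroup (Fin (m + k))))
          (ub (FreeGroup.of i))) = (PresentedGroup.mk _).comp ub :=
        FreeGroup.ext_hom _ _ fun i => by simp
      rw [h, MonoidHom.comp_apply]
      exact hone _ (by simp [hR] ; exact Or.inr (Or.inl ⟨r, hr, rfl⟩)))).comp
    eB.symm.toMonoidHom
  have hlift : ∀ r, Monoid.Coprod.lift fa fb (W r) =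
      PresentedGroup.mk (↑R : Set (FreeGroup (Fin (m + k)))) r := fun r =>
    DFunLike.congr_fun (FreeGroup.ext_hom ((Monoid.Coprod.lift fa fb).comp W)
      (PresentedGroup.mk _) fun i => by
        induction i using Fin.addCases with
        | left i => simp [W, fa, ua, PresentedGroup.toGroup.of]
        | right i => simp [W, fb, ub, PresentedGroup.toGroup.of]) r
  obtain ⟨Φ, hΦf, hΦg⟩ := huniv fa fb fun w hw => by
    rw [← hword w, hlift]
    exact hone _ (by simp [hR]; exact Or.inr (Or.inr ⟨w, hw, rfl⟩))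
  let ψ : P →* H := PresentedGroup.toGroup
    (f := fun i => Monoid.Coprod.lift f g (W (FreeGroup.of i))) (fun r hr => by
      have h : FreeGroup.lift (fun i => Monoid.Coprod.lift f g (W (FreeGroup.of i))) =
          (Monoid.Coprod.lift f g).comp W := FreeGroup.ext_hom _ _ fun i => by simp
      rw [h, MonoidHom.comp_apply]
      simp only [hR, Finset.mem_coe, Finset.mem_union, Finset.mem_image, List.mem_toFinset,
        List.mem_map] at hr
      rcases hr with (⟨s, hs, rfl⟩ | ⟨s, hs, rfl⟩) | ⟨w, hw, rfl⟩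
      · rw [hWa, PresentedGroup.one_of_mem (Finset.mem_coe.2 hs), map_one, map_one, map_one]
      · rw [hWb, PresentedGroup.one_of_mem (Finset.mem_coe.2 hs), map_one, map_one, map_one]
      · rw [hword]; exact hE w hw)
  have hΦ : Φ.comp (Monoid.Coprod.lift f g) = Monoid.Coprod.lift fa fb :=
    Monoid.Coprod.hom_ext (by ext a; simp [← hΦf]) (by ext b; simp [← hΦg])
  refine ⟨MonoidHom.toMulEquiv ψ Φ (PresentedGroup.ext fun i => ?_) ?_⟩
  · simp only [MonoidHom.comp_apply, MonoidHom.id_apply, ψ, PresentedGroup.toGroup.of]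
    rw [← MonoidHom.comp_apply, hΦ, hlift]
    rfl
  · refine MonoidHom.eq_of_eqOn_top fun x _ => ?_
    have hsurj : x ∈ (Monoid.Coprod.lift f g).range := by
      rw [Monoid.Coprod.range_lift, hgen]; trivial
    obtain ⟨w, rfl⟩ := hsurj
    obtain ⟨r, rfl⟩ : ∃ r, W r = w := ⟨word w, hword w⟩
    simp only [MonoidHom.comp_apply, MonoidHom.id_apply]
    rw [show Φ (Monoid.Coprod.lift f g (W r)) = PresentedGroup.mk _ r from
      (DFunLike.congr_fun hΦ (W r)).trans (hlift r)]
    exact DFunLike.congr_fun (FreeGroup.ext_hom (ψ.comp (PresentedGroup.mk _))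
      ((Monoid.Coprod.lift f g).comp W) fun i => by
        simp only [MonoidHom.comp_apply]
        exact PresentedGroup.toGroup.of (rels := (↑R : Set (FreeGroup (Fin (m + k))))) _) r

/-- Killing one element. -/
theorem exists_pres_quot {m : ℕ} {H : Type*} [Group H] (R : Finset (FreeGroup (Fin m)))
    (e : PresentedGroup (↑R : Set (FreeGroup (Fin m))) ≃* H) (N : Subgroup H) [N.Normal] (z : H)
    (hz : z ∈ N) (hN : ∀ x ∈ N, ∃ i : ℤ, z ^ i = x) :
    ∃ R' : Finset (FreeGroup (Fin m)), R'.card ≤ R.card + 1 ∧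
      Nonempty (PresentedGroup (↑R' : Set (FreeGroup (Fin m))) ≃* H ⧸ N) := by
  classical
  obtain ⟨w, hw⟩ := PresentedGroup.mk_surjective _ (e.symm z)
  refine ⟨insert w R, Finset.card_insert_le _ _, ?_⟩
  set P := PresentedGroup (↑(insert w R) : Set (FreeGroup (Fin m)))
  have hone : ∀ r ∈ insert w R, PresentedGroup.mk (↑(insert w R) : Set (FreeGroup (Fin m))) r = 1 :=
    fun r hr => PresentedGroup.one_of_mem (Finset.mem_coe.2 hr)
  let θ : PresentedGroup (↑R : Set (FreeGroup (Fin m))) →* P :=
    PresentedGroup.toGroup (f := fun i => PresentedGroup.of i) (fun r hr => by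
      rw [show FreeGroup.lift (fun i => (PresentedGroup.of i : P)) = PresentedGroup.mk _ from
        FreeGroup.ext_hom _ _ fun i => by simp [PresentedGroup.of]]
      exact hone r (Finset.mem_insert_of_mem (Finset.mem_coe.1 hr)))
  have hθ : ∀ r, θ (PresentedGroup.mk _ r) = PresentedGroup.mk _ r := fun r =>
    DFunLike.congr_fun (FreeGroup.ext_hom (θ.comp (PresentedGroup.mk _)) (PresentedGroup.mk _)
      fun i => rfl) r
  let Φ : H ⧸ N →* P := QuotientGroup.lift N (θ.comp e.symm.toMonoidHom) (fun x hx => by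
    obtain ⟨i, rfl⟩ := hN x hx
    rw [MonoidHom.mem_ker, map_zpow]
    simp only [MonoidHom.comp_apply, MulEquiv.toMonoidHom_eq_coe, MonoidHom.coe_coe]
    rw [← hw, hθ, hone w (Finset.mem_insert_self _ _), one_zpow])
  let ψ : P →* H ⧸ N := PresentedGroup.toGroup
    (f := fun i => QuotientGroup.mk' N (e (PresentedGroup.of i))) (fun r hr => by
      rw [show FreeGroup.lift (fun i => QuotientGroup.mk' N (e (PresentedGroup.of i))) =
        ((QuotientGroup.mk' N).comp e.toMonoidHom).comp (PresentedGroup.mk _) from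
        FreeGroup.ext_hom _ _ fun i => by simp [PresentedGroup.of]]
      simp only [MonoidHom.comp_apply, MulEquiv.toMonoidHom_eq_coe, MonoidHom.coe_coe,
        QuotientGroup.mk'_apply, QuotientGroup.eq_one_iff]
      rcases Finset.mem_insert.1 (Finset.mem_coe.1 hr) with rfl | hr
      · rw [hw, MulEquiv.apply_symm_apply]; exact hz
      · rw [PresentedGroup.one_of_mem (Finset.mem_coe.2 hr), map_one]; exact N.one_mem)
  refine ⟨MonoidHom.toMulEquiv ψ Φ (PresentedGroup.ext fun i => ?_)
    (QuotientGroup.monoidHom_ext _ ?_)⟩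
  · simp only [MonoidHom.comp_apply, MonoidHom.id_apply, ψ, PresentedGroup.toGroup.of, Φ,
      QuotientGroup.mk'_apply, QuotientGroup.lift_mk, MulEquiv.toMonoidHom_eq_coe,
      MonoidHom.coe_coe, MulEquiv.symm_apply_apply]
    exact PresentedGroup.toGroup.of _
  · refine MonoidHom.ext fun x => ?_
    obtain ⟨r, hr⟩ := PresentedGroup.mk_surjective _ (e.symm x)
    simp only [MonoidHom.comp_apply, MonoidHom.id_apply, Φ, QuotientGroup.mk'_apply,
      QuotientGroup.lift_mk, MulEquiv.toMonoidHom_eq_coe, MonoidHom.coe_coe]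
    rw [← hr, hθ]
    have : ψ.comp (PresentedGroup.mk _) =
        ((QuotientGroup.mk' N).comp e.toMonoidHom).comp (PresentedGroup.mk _) :=
      FreeGroup.ext_hom _ _ fun i => by
        simp only [MonoidHom.comp_apply]
        exact PresentedGroup.toGroup.of (rels := (↑(insert w R) : Set (FreeGroup (Fin m)))) _
    rw [← MonoidHom.comp_apply, this]
    simp [hr]

/-- One redundant generator. -/
theorem exists_pres_pad {m : ℕ} {H : Type*} [Group H] (R : Finset (FreeGroup (Fin m)))
    (e : PresentedGroup (↑R : Set (FreeGroup (Fin m))) ≃* H) :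
    ∃ R' : Finset (FreeGroup (Fin (m + 1))), R'.card ≤ R.card + 1 ∧
      Nonempty (PresentedGroup (↑R' : Set (FreeGroup (Fin (m + 1)))) ≃* H) := by
  haveI hsub : Subsingleton (PresentedGroup (↑({FreeGroup.of 0} : Finset (FreeGroup (Fin 1))) :
      Set (FreeGroup (Fin 1)))) := by
    refine ⟨fun a b => ?_⟩
    have h : ∀ a, a = (1 : PresentedGroup (↑({FreeGroup.of 0} : Finset (FreeGroup (Fin 1))) :
        Set (FreeGroup (Fin 1)))) := fun a => DFunLike.congr_fun (PresentedGroup.ext
      (φ := MonoidHom.id _) (ψ := 1) fun i => by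
        rw [Subsingleton.elim i 0]
        exact PresentedGroup.one_of_mem (by simp)) a
    rw [h a, h b]
  have := exists_pres_amalg R e {FreeGroup.of 0} (MulEquiv.refl _) []
    (MonoidHom.id H) 1 (by simp) (eq_top_iff.2 fun x _ => Subgroup.mem_sup_left ⟨x, rfl⟩) (fun f' g' _ => ⟨f', rfl, by
      refine MonoidHom.ext fun x => ?_
      rw [show x = 1 from @Subsingleton.elim _ hsub x 1]; simp⟩)
  simpa using this

open CfsgLib.AltPres54 in
/-- `A₄` on two generators with three relations. -/
theorem alt_four_pres : ∃ R : Finset (FreeGroup (Fin 2)), R.card ≤ 3 ∧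
    Nonempty (PresentedGroup (↑R : Set (FreeGroup (Fin 2))) ≃* alternatingGroup (Fin 4)) := by
  classical
  refine ⟨{FreeGroup.of 0 ^ 3, FreeGroup.of 1 ^ 3, (FreeGroup.of 0 * FreeGroup.of 1) ^ 2},
    Finset.card_le_three, ?_⟩
  set R : Finset (FreeGroup (Fin 2)) :=
    {FreeGroup.of 0 ^ 3, FreeGroup.of 1 ^ 3, (FreeGroup.of 0 * FreeGroup.of 1) ^ 2} with hR
  set gens : Fin 2 → alternatingGroup (Fin 4) :=
    ![⟨tri 0 1 2, sign_tri (by decide) (by decide)⟩, ⟨tri 0 1 3, sign_tri (by decide) (by decide)⟩] with hgens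
  let ψ : PresentedGroup (↑R : Set (FreeGroup (Fin 2))) →* alternatingGroup (Fin 4) :=
    PresentedGroup.toGroup (f := gens) (by
      intro r hr
      simp only [hR, Finset.coe_insert, Finset.coe_singleton, Set.mem_insert_iff,
        Set.mem_singleton_iff] at hr
      rcases hr with rfl | rfl | rfl <;>
        simp only [map_mul, map_pow, FreeGroup.lift_apply_of, hgens] <;> decide +kernel)
  set x : Fin 4 → PresentedGroup (↑R : Set (FreeGroup (Fin 2))) :=
    fun i => if i = 2 then PresentedGroup.of 0 else PresentedGroup.of 1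
  have hrel : ∀ w ∈ R, PresentedGroup.mk (↑R : Set (FreeGroup (Fin 2))) w = 1 := fun w hw =>
    PresentedGroup.one_of_mem (Finset.mem_coe.2 hw)
  have c0 : (PresentedGroup.of 0 : PresentedGroup (↑R : Set (FreeGroup (Fin 2)))) ^ 3 = 1 :=
    hrel (FreeGroup.of 0 ^ 3) (by simp [hR])
  have c1 : (PresentedGroup.of 1 : PresentedGroup (↑R : Set (FreeGroup (Fin 2)))) ^ 3 = 1 :=
    hrel (FreeGroup.of 1 ^ 3) (by simp [hR])
  have c01 : (PresentedGroup.of 0 * PresentedGroup.of 1 :
      PresentedGroup (↑R : Set (FreeGroup (Fin 2)))) ^ 2 = 1 :=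
    hrel ((FreeGroup.of 0 * FreeGroup.of 1) ^ 2) (by simp [hR])
  have c10 : (PresentedGroup.of 1 * PresentedGroup.of 0 :
      PresentedGroup (↑R : Set (FreeGroup (Fin 2)))) ^ 2 = 1 := by
    have : PresentedGroup.of 1 * PresentedGroup.of 0 = (PresentedGroup.of 0 :
        PresentedGroup (↑R : Set (FreeGroup (Fin 2))))⁻¹ * (PresentedGroup.of 0 * PresentedGroup.of 1) *
        ((PresentedGroup.of 0)⁻¹)⁻¹ := by group
    rw [this, conj_pow, c01]
    group
  obtain ⟨φ, hφ⟩ := exists_hom (S := (Finset.univ : Finset (Fin 4))) (a := 0) (b := 1)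
    (Finset.mem_univ _) (Finset.mem_univ _) (by decide) x
    (fun i _ h0 h1 => by fin_cases i <;> simp_all [x])
    (fun i _ j _ hi0 hi1 hj0 hj1 hij => by
      fin_cases i <;> fin_cases j <;> simp_all [x])
  let ι : alternatingGroup (Fin 4) →* altOn (Finset.univ : Finset (Fin 4)) :=
    (MulEquiv.subgroupCongr altOn_univ.symm).toMonoidHom
  refine ⟨MonoidHom.toMulEquiv ψ (φ.comp ι) (PresentedGroup.ext fun i => ?_) ?_⟩
  · simp only [MonoidHom.comp_apply, MonoidHom.id_apply, ψ, PresentedGroup.toGroup.of]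
    fin_cases i
    · exact (hφ 2 (Finset.mem_univ _) (by decide) (by decide)).trans (by simp [x])
    · exact (hφ 3 (Finset.mem_univ _) (by decide) (by decide)).trans (by simp [x])
  · refine MonoidHom.ext fun σ => ?_
    have := DFunLike.congr_fun (hom_ext (Finset.mem_univ (0 : Fin 4)) (Finset.mem_univ (1 : Fin 4))
      (by decide) ((alternatingGroup (Fin 4)).subtype.comp (ψ.comp φ))
      (altOn Finset.univ).subtype fun i hi h0 h1 => by
        simp only [MonoidHom.comp_apply]
        rw [hφ i hi h0 h1]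
        fin_cases i <;> first | exact absurd rfl h0 | exact absurd rfl h1 |
          simp [x, ψ, hgens, PresentedGroup.toGroup.of]) (ι σ)
    exact Subtype.ext this

/-- `A₅` on two generators with three relations. -/
theorem alt_five_pres : ∃ R : Finset (FreeGroup (Fin 2)), R.card ≤ 3 ∧
    Nonempty (PresentedGroup (↑R : Set (FreeGroup (Fin 2))) ≃* alternatingGroup (Fin 5)) := by
  classical
  refine ⟨{FreeGroup.of 0 ^ 3, FreeGroup.of 1 ^ 5, (FreeGroup.of 0 * FreeGroup.of 1) ^ 2},
    Finset.card_le_three, ?_⟩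
  have hset : (↑({FreeGroup.of 0 ^ 3, FreeGroup.of 1 ^ 5,
      (FreeGroup.of 0 * FreeGroup.of 1) ^ 2} : Finset (FreeGroup (Fin 2))) : Set (FreeGroup (Fin 2))) =
      {FreeGroup.of 0 ^ 3, FreeGroup.of 1 ^ 5, (FreeGroup.of 0 * FreeGroup.of 1) ^ 2} := by simp
  rw [hset]
  exact Cfsg.Agent.S3377.result

end CfsgLib.SLPres77
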